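import Mathlib

/-! Jordan bases of nilpotent endomorphisms. -/

set_option autoImplicit false

namespace Cfsg.Agent.KnownA.Jordan

open Polynomial Module

variable {F V : Type*} [Field F] [AddCommGroup V] [Module F V]

/-- `b` is a union of chains of lengths `k i` for `N`. -/
def IsChain {ι : Type*} {k : ι → ℕ} (N : Module.End F V) (b : Module.Basis (Σ i, Fin (k i)) F V) :
    Prop :=
  ∀ (i : ι) (j : Fin (k i)), N (b ⟨i, j⟩) =
    if h : (j : ℕ) + 1 < k i then b ⟨i, ⟨j + 1, h⟩⟩ else 0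

theorem exists_chain_basis [FiniteDimensional F V] {N : Module.End F V} (hN : IsNilpotent N) :
    ∃ (d : ℕ) (k : Fin d → ℕ) (b : Module.Basis (Σ i, Fin (k i)) F V), IsChain N b := by
  classical
  obtain ⟨n, hn⟩ := hN
  have htors : Module.IsTorsion' (AEval' N) (Submonoid.powers (X : F[X])) := by
    intro m
    refine ⟨⟨X ^ n, n, rfl⟩, ?_⟩
    obtain ⟨v, rfl⟩ := (AEval'.of N).surjective m
    show (X ^ n : F[X]) • AEval'.of N v = 0
    rw [AEval'.X_pow_smul_of, hn]
    simp
  obtain ⟨d, k, ⟨e⟩⟩ := Module.torsion_by_prime_power_decomposition (p := (X : F[X]))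
    Polynomial.irreducible_X htors
  have hdeg : ∀ i : Fin d, (X ^ k i : F[X]).natDegree = k i := fun i => Polynomial.natDegree_X_pow _
  let b0 : ∀ i : Fin d, Module.Basis (Fin (k i)) F (F[X] ⧸ Submodule.span F[X] {(X : F[X]) ^ k i}) :=
    fun i => ((AdjoinRoot.powerBasis (pow_ne_zero (k i) (X_ne_zero (R := F)))).basis.reindex
      (finCongr (hdeg i)) : Module.Basis (Fin (k i)) F (AdjoinRoot ((X : F[X]) ^ k i)))
  have hb0 : ∀ (i : Fin d) (j : Fin (k i)),
      b0 i j = Submodule.Quotient.mk ((X : F[X]) ^ (j : ℕ)) := by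
    intro i j
    show ((AdjoinRoot.powerBasis _).basis.reindex (finCongr (hdeg i))) j = _
    rw [Module.Basis.reindex_apply, PowerBasis.coe_basis, AdjoinRoot.powerBasis_gen]
    show AdjoinRoot.root ((X : F[X]) ^ k i) ^ (j : ℕ) = _
    rw [← AdjoinRoot.mk_X, ← map_pow]
    rfl
  let B : Module.Basis (Σ i, Fin (k i)) F
      (DirectSum (Fin d) fun i => F[X] ⧸ Submodule.span F[X] {(X : F[X]) ^ k i}) :=
    DFinsupp.basis b0
  have hB : ∀ (i : Fin d) (j : Fin (k i)),
      B ⟨i, j⟩ = DirectSum.lof F[X] (Fin d) _ i (Submodule.Quotient.mk ((X : F[X]) ^ (j : ℕ))) := by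
    intro i j
    rw [← hb0]
    apply B.repr.injective
    rw [Module.Basis.repr_self]
    ext ⟨i', j'⟩
    show _ = (b0 i').repr ((DFinsupp.single i (b0 i j) :
      Π₀ x, F[X] ⧸ Submodule.span F[X] {(X : F[X]) ^ k x}) i') j'
    by_cases h : i = i'
    · subst h
      rw [DFinsupp.single_eq_same, Module.Basis.repr_self]
      simp [Finsupp.single_apply]
    · rw [DFinsupp.single_eq_of_ne (Ne.symm h), map_zero]
      simp [Finsupp.single_apply, h]
  refine ⟨d, k, B.map ((e.restrictScalars F).symm.trans (AEval'.of N).symm), fun i j => ?_⟩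
  rw [Module.Basis.map_apply]
  show N ((AEval'.of N).symm (e.symm (B ⟨i, j⟩))) = _
  rw [← AEval'.of_symm_X_smul, ← map_smul e.symm, hB, ← map_smul (DirectSum.lof F[X] (Fin d) _ i),
    ← Submodule.Quotient.mk_smul, smul_eq_mul, ← pow_succ']
  split_ifs with h
  · rw [Module.Basis.map_apply, hB]
    rfl
  · rw [show (Submodule.Quotient.mk ((X : F[X]) ^ ((j : ℕ) + 1)) :
        F[X] ⧸ Submodule.span F[X] {(X : F[X]) ^ k i}) = 0 from
      (Submodule.Quotient.mk_eq_zero _).2 (Submodule.mem_span_singleton.2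
        ⟨X ^ ((j : ℕ) + 1 - k i), by rw [smul_eq_mul, ← pow_add]; congr 1; omega⟩)]
    simp

end Cfsg.Agent.KnownA.Jordan
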