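import Cfsg.Agent.KnownA.Jordan.Basis

/-! Jordan types of nilpotent endomorphisms as partitions. -/

set_option autoImplicit false

namespace Cfsg.Agent.KnownA.Jordan

open Module

variable {F V : Type*} [Field F] [AddCommGroup V] [Module F V]
variable {ι : Type*} {k : ι → ℕ}

theorem pow_apply {N : Module.End F V} {b : Module.Basis (Σ i, Fin (k i)) F V} (hb : IsChain N b)
    (m : ℕ) (i : ι) (j : Fin (k i)) :
    (N ^ m) (b ⟨i, j⟩) = if h : (j : ℕ) + m < k i then b ⟨i, ⟨j + m, h⟩⟩ else 0 := by
  induction m with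
  | zero => simp [Module.End.one_eq_id]
  | succ m ih =>
    rw [pow_succ', Module.End.mul_apply, ih]
    by_cases h : (j : ℕ) + m < k i
    · rw [dif_pos h, hb]
      rfl
    · rw [dif_neg h, map_zero, dif_neg (by omega)]

theorem finrank_range_pow [Fintype ι] {N : Module.End F V}
    {b : Module.Basis (Σ i, Fin (k i)) F V} (hb : IsChain N b) (m : ℕ) :
    finrank F (LinearMap.range (N ^ m)) = ∑ i, (k i - m) := by
  classical
  let f : (Σ i, Fin (k i - m)) → (Σ i, Fin (k i)) := fun x =>
    ⟨x.1, ⟨(x.2 : ℕ) + m, by have := x.2.isLt; omega⟩⟩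
  have hf : Function.Injective f := by
    rintro ⟨i, j⟩ ⟨i', j'⟩ h
    simp only [f, Sigma.mk.injEq] at h
    obtain ⟨rfl, h⟩ := h
    have : (j : ℕ) = j' := by
      have := congrArg Fin.val (eq_of_heq h)
      simpa using this
    rw [Fin.ext this]
  have hrange : LinearMap.range (N ^ m) = Submodule.span F (Set.range (b ∘ f)) := by
    refine le_antisymm ?_ (Submodule.span_le.2 ?_)
    · rw [LinearMap.range_eq_map, ← b.span_eq, Submodule.map_span, Submodule.span_le]
      rintro _ ⟨_, ⟨⟨i, j⟩, rfl⟩, rfl⟩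
      rw [pow_apply hb]
      split_ifs with h
      · exact Submodule.subset_span ⟨⟨i, ⟨j, by omega⟩⟩, rfl⟩
      · exact zero_mem _
    · rintro _ ⟨⟨i, j⟩, rfl⟩
      have hj := j.isLt
      refine ⟨b ⟨i, ⟨j, by omega⟩⟩, ?_⟩
      rw [pow_apply hb, dif_pos (show (j : ℕ) + m < k i by omega)]
      rfl
  rw [hrange, finrank_span_eq_card (b.linearIndependent.comp f hf), Fintype.card_sigma]
  simp

theorem sum_sub_succ {α : Type*} [Fintype α] (f : α → ℕ) (m : ℕ) :
    ∑ i, (f i - m) = ∑ i, (f i - (m + 1)) + (Finset.univ.filter fun i => m < f i).card := by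
  rw [Finset.card_filter, ← Finset.sum_add_distrib]
  refine Finset.sum_congr rfl fun i _ => ?_
  split_ifs with h <;> omega

theorem card_split {α : Type*} [Fintype α] (f : α → ℕ) {c : ℕ} (hc : 0 < c) :
    (Finset.univ.filter fun i => c - 1 < f i).card =
      (Finset.univ.filter fun i => f i = c).card + (Finset.univ.filter fun i => c < f i).card := by
  rw [Finset.card_filter, Finset.card_filter, Finset.card_filter, ← Finset.sum_add_distrib]
  refine Finset.sum_congr rfl fun i _ => ?_
  split_ifs <;> omega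

/-- Two chain bases give the same number of blocks of each positive length. -/
theorem card_fiber_eq [Fintype ι] {ι' : Type*} [Fintype ι'] {k' : ι' → ℕ} {N : Module.End F V}
    {b : Module.Basis (Σ i, Fin (k i)) F V} (hb : IsChain N b)
    {V' : Type*} [AddCommGroup V'] [Module F V'] {N' : Module.End F V'}
    {b' : Module.Basis (Σ i, Fin (k' i)) F V'} (hb' : IsChain N' b')
    (e : V ≃ₗ[F] V') (he : ∀ v, e (N v) = N' (e v)) {c : ℕ} (hc : 0 < c) :
    (Finset.univ.filter fun i => k i = c).card = (Finset.univ.filter fun i => k' i = c).card := by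
  classical
  have hrank : ∀ m, ∑ i, (k i - m) = ∑ i, (k' i - m) := by
    intro m
    rw [← finrank_range_pow hb, ← finrank_range_pow hb']
    have hem : ∀ v, e ((N ^ m) v) = (N' ^ m) (e v) := by
      induction m with
      | zero => intro v; simp [Module.End.one_eq_id]
      | succ m ih =>
        intro v
        rw [pow_succ', pow_succ', Module.End.mul_apply, Module.End.mul_apply, he, ih]
    have hmap : LinearMap.range (N' ^ m) =
        (LinearMap.range (N ^ m)).map (e : V →ₗ[F] V') := by
      ext x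
      simp only [LinearMap.mem_range, Submodule.mem_map, LinearEquiv.coe_coe]
      constructor
      · rintro ⟨y, rfl⟩
        obtain ⟨v, rfl⟩ := e.surjective y
        exact ⟨(N ^ m) v, ⟨v, rfl⟩, hem v⟩
      · rintro ⟨_, ⟨v, rfl⟩, rfl⟩
        exact ⟨e v, (hem v).symm⟩
    rw [hmap, LinearEquiv.finrank_map_eq]
  have hgt : ∀ m, (Finset.univ.filter fun i => m < k i).card =
      (Finset.univ.filter fun i => m < k' i).card := by
    intro m
    have h1 := sum_sub_succ k m
    have h2 := sum_sub_succ k' m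
    have h3 := hrank m
    have h4 := hrank (m + 1)
    omega
  have h1 := card_split k hc
  have h2 := card_split k' hc
  have h3 := hgt (c - 1)
  have h4 := hgt c
  omega

/-- Equal block lengths give similar endomorphisms. -/
theorem exists_equiv_of_card_fiber [Fintype ι] {ι' : Type*} [Fintype ι'] {k' : ι' → ℕ}
    {N : Module.End F V} {b : Module.Basis (Σ i, Fin (k i)) F V} (hb : IsChain N b)
    {V' : Type*} [AddCommGroup V'] [Module F V'] {N' : Module.End F V'}
    {b' : Module.Basis (Σ i, Fin (k' i)) F V'} (hb' : IsChain N' b')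
    (h : ∀ c, 0 < c → (Finset.univ.filter fun i => k i = c).card =
      (Finset.univ.filter fun i => k' i = c).card) :
    ∃ e : V ≃ₗ[F] V', ∀ v, e (N v) = N' (e v) := by
  classical
  let P := {i : ι // 0 < k i}
  let P' := {i : ι' // 0 < k' i}
  have hcard : ∀ c : ℕ, Fintype.card {x : P // k x.1 = c} = Fintype.card {x : P' // k' x.1 = c} := by
    intro c
    rcases Nat.eq_zero_or_pos c with rfl | hc
    · rw [Fintype.card_eq_zero_iff.2 ⟨fun x => by have := x.1.2; have := x.2; omega⟩,
        Fintype.card_eq_zero_iff.2 ⟨fun x => by have := x.1.2; have := x.2; omega⟩]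
    · rw [Fintype.card_congr (Equiv.subtypeSubtypeEquivSubtype (p := fun i => 0 < k i)
          (q := fun i => k i = c) (fun {x} hx => hx ▸ hc)),
        Fintype.card_congr (Equiv.subtypeSubtypeEquivSubtype (p := fun i => 0 < k' i)
          (q := fun i => k' i = c) (fun {x} hx => hx ▸ hc)),
        Fintype.card_subtype, Fintype.card_subtype, h c hc]
  let τ : P ≃ P' := Equiv.ofFiberEquiv fun c => Fintype.equivOfCardEq (hcard c)
  have hτ : ∀ x : P, k' (τ x).1 = k x.1 := fun x =>
    Equiv.ofFiberEquiv_map (fun c => Fintype.equivOfCardEq (hcard c)) x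
  let s : (Σ i, Fin (k i)) ≃ (Σ x : P, Fin (k x.1)) :=
    { toFun := fun x => ⟨⟨x.1, lt_of_le_of_lt (Nat.zero_le _) x.2.isLt⟩, x.2⟩
      invFun := fun x => ⟨x.1.1, x.2⟩
      left_inv := fun x => rfl
      right_inv := fun x => rfl }
  let s' : (Σ x : P', Fin (k' x.1)) ≃ (Σ i, Fin (k' i)) :=
    { toFun := fun x => ⟨x.1.1, x.2⟩
      invFun := fun x => ⟨⟨x.1, lt_of_le_of_lt (Nat.zero_le _) x.2.isLt⟩, x.2⟩
      left_inv := fun x => rfl
      right_inv := fun x => rfl }
  let mid : (Σ x : P, Fin (k x.1)) ≃ (Σ x : P', Fin (k' x.1)) :=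
    Equiv.sigmaCongr τ fun x => finCongr (hτ x).symm
  let σ := s.trans (mid.trans s')
  refine ⟨b.equiv b' σ, fun v => ?_⟩
  suffices (b.equiv b' σ : V →ₗ[F] V') ∘ₗ N = N' ∘ₗ (b.equiv b' σ : V →ₗ[F] V') from
    LinearMap.congr_fun this v
  refine b.ext fun x => ?_
  obtain ⟨i, j⟩ := x
  simp only [LinearMap.comp_apply, LinearEquiv.coe_coe]
  have hpos : 0 < k i := lt_of_le_of_lt (Nat.zero_le _) j.isLt
  have hk := hτ ⟨i, hpos⟩
  have hσ : σ ⟨i, j⟩ = ⟨(τ ⟨i, hpos⟩).1, Fin.cast hk.symm j⟩ := rfl
  rw [Module.Basis.equiv_apply, hb, hσ, hb']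
  by_cases hlt : (j : ℕ) + 1 < k i
  · rw [dif_pos hlt, dif_pos (show ((Fin.cast hk.symm j : Fin _) : ℕ) + 1 < k' (τ ⟨i, hpos⟩).1 by
      rw [Fin.val_cast, hk]; exact hlt), Module.Basis.equiv_apply]
    rfl
  · rw [dif_neg hlt, dif_neg (show ¬ ((Fin.cast hk.symm j : Fin _) : ℕ) + 1 < k' (τ ⟨i, hpos⟩).1 by
      rw [Fin.val_cast, hk]; exact hlt), map_zero]

/-- The block lengths of a partition. -/
noncomputable def blockLen {n : ℕ} (μ : Nat.Partition n) (i : Fin μ.parts.toList.length) : ℕ :=
  μ.parts.toList.get i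

theorem sum_blockLen {n : ℕ} (μ : Nat.Partition n) : ∑ i, blockLen μ i = n := by
  rw [← List.sum_ofFn]
  unfold blockLen
  rw [List.ofFn_get, Multiset.sum_toList, μ.parts_sum]

theorem card_blockLen {n : ℕ} (μ : Nat.Partition n) (c : ℕ) :
    (Finset.univ.filter fun i => blockLen μ i = c).card = μ.parts.count c := by
  classical
  have h : (Finset.univ.val.map (blockLen μ)) = μ.parts := by
    rw [Fin.univ_val_map]
    unfold blockLen
    rw [List.ofFn_get, Multiset.coe_toList]
  conv_rhs => rw [← h]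
  rw [Multiset.count_map, Finset.card_def, Finset.filter_val]
  congr 1
  exact Multiset.filter_congr fun x _ => eq_comm

theorem mem_blockLen {n : ℕ} (μ : Nat.Partition n) (c : ℕ) :
    c ∈ μ.parts ↔ ∃ i, blockLen μ i = c := by
  rw [← Multiset.mem_toList, List.mem_iff_get]
  rfl

/-- An index equivalence for the model. -/
noncomputable def modelIdx {n : ℕ} (μ : Nat.Partition n) : (Σ i, Fin (blockLen μ i)) ≃ Fin n :=
  (Fintype.equivFinOfCardEq (by
    rw [Fintype.card_sigma]
    simp [sum_blockLen]))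

/-- The Jordan basis of the model. -/
noncomputable def modelBasis (F : Type*) [Field F] {n : ℕ} (μ : Nat.Partition n) :
    Module.Basis (Σ i, Fin (blockLen μ i)) F (Fin n → F) :=
  (Pi.basisFun F (Fin n)).reindex (modelIdx μ).symm

/-- The model nilpotent endomorphism of type `μ`. -/
noncomputable def model (F : Type*) [Field F] {n : ℕ} (μ : Nat.Partition n) :
    Module.End F (Fin n → F) :=
  (modelBasis F μ).constr F fun x =>
    if h : (x.2 : ℕ) + 1 < blockLen μ x.1 then modelBasis F μ ⟨x.1, ⟨x.2 + 1, h⟩⟩ else 0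

theorem model_chain (F : Type*) [Field F] {n : ℕ} (μ : Nat.Partition n) :
    IsChain (model F μ) (modelBasis F μ) := fun _ _ =>
  Module.Basis.constr_basis _ _ _ _

theorem model_pow_eq_zero (F : Type*) [Field F] {n : ℕ} (μ : Nat.Partition n) (m : ℕ) :
    model F μ ^ m = 0 ↔ ∀ a ∈ μ.parts, a ≤ m := by
  have h := finrank_range_pow (model_chain F μ) m
  constructor
  · intro h0 a ha
    obtain ⟨i, rfl⟩ := (mem_blockLen μ a).1 ha
    rw [h0, LinearMap.range_zero, finrank_bot, eq_comm, Finset.sum_eq_zero_iff] at h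
    have := h i (Finset.mem_univ _)
    omega
  · intro hall
    rw [Finset.sum_eq_zero fun i _ => Nat.sub_eq_zero_of_le
      (hall _ ((mem_blockLen μ _).2 ⟨i, rfl⟩))] at h
    exact LinearMap.range_eq_bot.1 (Submodule.finrank_eq_zero.1 h)

theorem model_nilpotent (F : Type*) [Field F] {n : ℕ} (μ : Nat.Partition n) :
    IsNilpotent (model F μ) :=
  ⟨n, (model_pow_eq_zero F μ n).2 fun a ha => μ.parts_sum ▸ Multiset.le_sum_of_mem ha⟩

theorem model_inj (F : Type*) [Field F] {n : ℕ} {μ ν : Nat.Partition n}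
    (e : (Fin n → F) ≃ₗ[F] (Fin n → F)) (he : ∀ v, e (model F μ v) = model F ν (e v)) : μ = ν := by
  classical
  refine Nat.Partition.ext (Multiset.ext.2 fun c => ?_)
  rcases Nat.eq_zero_or_pos c with rfl | hc
  · rw [Multiset.count_eq_zero.2 fun h => (μ.parts_pos h).ne' rfl,
      Multiset.count_eq_zero.2 fun h => (ν.parts_pos h).ne' rfl]
  · rw [← card_blockLen, ← card_blockLen]
    exact card_fiber_eq (model_chain F μ) (model_chain F ν) e he hc

/-- Every nilpotent endomorphism of `F^n` is similar to a model. -/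
theorem exists_model (F : Type*) [Field F] {n : ℕ} {N : Module.End F (Fin n → F)}
    (hN : IsNilpotent N) :
    ∃ (μ : Nat.Partition n) (e : (Fin n → F) ≃ₗ[F] (Fin n → F)),
      ∀ v, e (N v) = model F μ (e v) := by
  classical
  obtain ⟨d, k, b, hb⟩ := exists_chain_basis hN
  have hsum : ∑ i, k i = n := by
    have h := Module.finrank_eq_card_basis b
    rw [Module.finrank_fin_fun, Fintype.card_sigma] at h
    simpa using h.symm
  let μ : Nat.Partition n :=
    Nat.Partition.ofSums n (Finset.univ.val.map k) hsum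
  obtain ⟨e, he⟩ := exists_equiv_of_card_fiber hb (model_chain F μ) fun c hc => by
    rw [card_blockLen]
    show _ = Multiset.count c (Multiset.filter (fun x => x ≠ 0) (Finset.univ.val.map k))
    rw [Multiset.count_filter_of_pos (p := fun x => x ≠ 0) hc.ne', Multiset.count_map, Finset.card_def,
      Finset.filter_val]
    congr 1
    exact Multiset.filter_congr fun x _ => eq_comm
  exact ⟨μ, e, he⟩

end Cfsg.Agent.KnownA.Jordan
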