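import Cfsg.Agent.KnownA.Jordan.Types

/-! Unipotent classes of `GL_n` and partitions. -/

set_option autoImplicit false

namespace Cfsg.Agent.KnownA.Jordan

variable {F : Type*} [Field F] {n : ℕ}

/-- `g - 1` as an endomorphism. -/
noncomputable def nilPart (g : GL (Fin n) F) : Module.End F (Fin n → F) :=
  Matrix.toLinAlgEquiv' ((g : Matrix (Fin n) (Fin n) F) - 1)

/-- The unipotent element of type `μ`. -/
noncomputable def modelGL (F : Type*) [Field F] {n : ℕ} (μ : Nat.Partition n) : GL (Fin n) F :=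
  (((model_nilpotent F μ).map (Matrix.toLinAlgEquiv' (R := F) (n := Fin n)).symm).isUnit_one_add).unit

theorem nilPart_model (μ : Nat.Partition n) : nilPart (modelGL F μ) = model F μ := by
  simp [nilPart, modelGL]

theorem isConj_iff_similar (g h : GL (Fin n) F) :
    IsConj g h ↔ ∃ e : (Fin n → F) ≃ₗ[F] (Fin n → F), ∀ v, e (nilPart g v) = nilPart h (e v) := by
  constructor
  · intro hc
    obtain ⟨c, rfl⟩ := isConj_iff.1 hc
    refine ⟨(Matrix.GeneralLinearGroup.toLin c).toLinearEquiv, fun v => ?_⟩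
    show (c : Matrix (Fin n) (Fin n) F).mulVec (nilPart g v) =
      nilPart (c * g * c⁻¹) ((c : Matrix (Fin n) (Fin n) F).mulVec v)
    simp only [nilPart, Matrix.toLinAlgEquiv'_apply, Matrix.mulVec_mulVec, Units.val_mul]
    congr 1
    rw [sub_mul, mul_sub, one_mul, mul_one, mul_assoc _ _ (c : Matrix (Fin n) (Fin n) F),
      Units.inv_mul, mul_one]
  · rintro ⟨e, he⟩
    let E : Matrix (Fin n) (Fin n) F := LinearMap.toMatrixAlgEquiv' (e : Module.End F (Fin n → F))
    have hE : IsUnit E := IsUnit.map _ (LinearMap.GeneralLinearGroup.ofLinearEquiv e).isUnit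
    refine isConj_iff.2 ⟨hE.unit, mul_inv_eq_iff_eq_mul.2 (Units.ext ?_)⟩
    rw [Units.val_mul, Units.val_mul, IsUnit.unit_spec]
    have hcomp : (e : Module.End F (Fin n → F)) * nilPart g = nilPart h * (e : Module.End F _) :=
      LinearMap.ext he
    have := congrArg (LinearMap.toMatrixAlgEquiv' (R := F)) hcomp
    rw [map_mul, map_mul, nilPart, nilPart, LinearMap.toMatrixAlgEquiv'_toLinAlgEquiv',
      LinearMap.toMatrixAlgEquiv'_toLinAlgEquiv', mul_sub, sub_mul, mul_one, one_mul] at this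
    exact sub_left_inj.1 this

theorem modelGL_inj {μ ν : Nat.Partition n} (h : IsConj (modelGL F μ) (modelGL F ν)) : μ = ν := by
  obtain ⟨e, he⟩ := (isConj_iff_similar _ _).1 h
  exact model_inj F e fun v => by rw [← nilPart_model, ← nilPart_model]; exact he v

theorem exists_isConj_model {g : GL (Fin n) F} (hg : IsNilpotent (nilPart g)) :
    ∃ μ : Nat.Partition n, IsConj g (modelGL F μ) := by
  obtain ⟨μ, e, he⟩ := exists_model F hg
  exact ⟨μ, (isConj_iff_similar _ _).2 ⟨e, fun v => by rw [he, nilPart_model]⟩⟩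

theorem card_classes (P : GL (Fin n) F → Prop) (Q : Nat.Partition n → Prop) [DecidablePred Q]
    (hP : ∀ g h, IsConj g h → P g → P h) (hnil : ∀ g, P g → IsNilpotent (nilPart g))
    (hPQ : ∀ μ, P (modelGL F μ) ↔ Q μ) :
    Nat.card {C : ConjClasses (GL (Fin n) F) // ∃ g, P g ∧ ConjClasses.mk g = C} =
      (Finset.univ.filter Q).card := by
  classical
  rw [← Fintype.card_subtype, ← Nat.card_eq_fintype_card]
  refine (Nat.card_eq_of_bijective
    (fun μ : {μ : Nat.Partition n // Q μ} =>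
      (⟨ConjClasses.mk (modelGL F μ.1), modelGL F μ.1, (hPQ _).2 μ.2, rfl⟩ :
        {C : ConjClasses (GL (Fin n) F) // ∃ g, P g ∧ ConjClasses.mk g = C}))
    ⟨fun μ ν h => Subtype.ext (modelGL_inj (ConjClasses.mk_eq_mk_iff_isConj.1 (congrArg Subtype.val h))),
      ?_⟩).symm
  rintro ⟨_, g, hg, rfl⟩
  obtain ⟨μ, hμ⟩ := exists_isConj_model (hnil g hg)
  exact ⟨⟨μ, (hPQ μ).1 (hP _ _ hμ hg)⟩,
    Subtype.ext (ConjClasses.mk_eq_mk_iff_isConj.2 hμ.symm)⟩

theorem pow_eq_one_iff (p : ℕ) [Fact p.Prime] [CharP F p] (k : ℕ) (g : GL (Fin n) F) :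
    g ^ p ^ k = 1 ↔ nilPart g ^ p ^ k = 0 := by
  rcases Nat.eq_zero_or_pos n with rfl | hn
  · exact ⟨fun _ => LinearMap.ext fun v => Subsingleton.elim _ _, fun _ => Subsingleton.elim _ _⟩
  have : Nonempty (Fin n) := ⟨⟨0, hn⟩⟩
  rw [nilPart, ← map_pow, EmbeddingLike.map_eq_zero_iff,
    sub_pow_char_pow_of_commute (p := p) (h := Commute.one_right _), one_pow, sub_eq_zero,
    ← Units.val_pow_eq_pow_val, Units.val_eq_one]

theorem card_unipotent (p : ℕ) [Fact p.Prime] [CharP F p] [Finite F] (n : ℕ) :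
    Nat.card {C : ConjClasses (GL (Fin n) F) //
      ∃ g : GL (Fin n) F, (∃ k : ℕ, orderOf g = p ^ k) ∧ ConjClasses.mk g = C} =
      Fintype.card (Nat.Partition n) := by
  classical
  have hp : p.Prime := Fact.out
  have key : ∀ g : GL (Fin n) F, (∃ k : ℕ, orderOf g = p ^ k) ↔ IsNilpotent (nilPart g) := by
    intro g
    constructor
    · rintro ⟨k, hk⟩
      exact ⟨p ^ k, (pow_eq_one_iff p k g).1 (hk ▸ pow_orderOf_eq_one g)⟩
    · rintro ⟨m, hm⟩
      have h := orderOf_dvd_of_pow_eq_one ((pow_eq_one_iff p m g).2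
        (pow_eq_zero_of_le (Nat.lt_pow_self hp.one_lt).le hm))
      obtain ⟨j, -, hj⟩ := (Nat.dvd_prime_pow hp).1 h
      exact ⟨j, hj⟩
  rw [card_classes (fun g => ∃ k : ℕ, orderOf g = p ^ k) (fun _ => True)
    (fun g h hc ⟨k, hk⟩ => ⟨k, by
      obtain ⟨c, rfl⟩ := isConj_iff.1 hc
      rw [← hk]
      exact orderOf_injective (MulAut.conj c).toMonoidHom (MulAut.conj c).injective g⟩)
    (fun g hg => (key g).1 hg)
    (fun μ => ⟨fun _ => trivial, fun _ => (key _).2 (by rw [nilPart_model]; exact model_nilpotent F μ)⟩)]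
  simp

theorem card_order_p (p : ℕ) [Fact p.Prime] [CharP F p] (n : ℕ) :
    Nat.card {C : ConjClasses (GL (Fin n) F) //
      ∃ g : GL (Fin n) F, ConjClasses.mk g = C ∧ orderOf g = p} =
      (Finset.univ.filter fun μ : Nat.Partition n => ∀ a ∈ μ.parts, a ≤ p).card - 1 := by
  classical
  have key : ∀ g : GL (Fin n) F, orderOf g = p ↔ nilPart g ^ p = 0 ∧ nilPart g ^ 1 ≠ 0 := by
    intro g
    rw [orderOf_eq_prime_iff]
    have h1 := pow_eq_one_iff p 1 g
    have h0 := pow_eq_one_iff p 0 g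
    rw [pow_one] at h1
    rw [pow_zero, pow_one] at h0
    rw [h1, ne_eq, h0]
  have e : {C : ConjClasses (GL (Fin n) F) //
      ∃ g : GL (Fin n) F, ConjClasses.mk g = C ∧ orderOf g = p} ≃
      {C : ConjClasses (GL (Fin n) F) //
        ∃ g : GL (Fin n) F, orderOf g = p ∧ ConjClasses.mk g = C} :=
    Equiv.subtypeEquivRight fun C => exists_congr fun g => and_comm
  rw [Nat.card_congr e, card_classes (fun g => orderOf g = p)
    (fun μ => (∀ a ∈ μ.parts, a ≤ p) ∧ ¬ ∀ a ∈ μ.parts, a ≤ 1)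
    (fun g h hc hg => by
      obtain ⟨c, rfl⟩ := isConj_iff.1 hc
      rw [← hg]
      exact orderOf_injective (MulAut.conj c).toMonoidHom (MulAut.conj c).injective g)
    (fun g hg => ⟨p, ((key g).1 hg).1⟩)
    (fun μ => by rw [key, nilPart_model, ne_eq, model_pow_eq_zero, model_pow_eq_zero])]
  have hsplit : (Finset.univ.filter fun μ : Nat.Partition n =>
      (∀ a ∈ μ.parts, a ≤ p) ∧ ¬ ∀ a ∈ μ.parts, a ≤ 1) =
      (Finset.univ.filter fun μ : Nat.Partition n => ∀ a ∈ μ.parts, a ≤ p).erase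
        (Nat.Partition.ofSums n (Multiset.replicate n 1) (by simp)) := by
    ext μ
    simp only [Finset.mem_filter, Finset.mem_univ, true_and, Finset.mem_erase, ne_eq]
    rw [and_comm (a := ∀ a ∈ μ.parts, a ≤ p)]
    refine and_congr_left fun _ => not_congr ⟨fun h => ?_, ?_⟩
    · have hr : μ.parts = Multiset.replicate μ.parts.card 1 :=
        Multiset.eq_replicate_card.2 fun a ha => le_antisymm (h a ha) (μ.parts_pos ha)
      have hc : μ.parts.card = n := by
        have := μ.parts_sum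
        rw [hr, Multiset.sum_replicate, smul_eq_mul, mul_one] at this
        exact this
      refine Nat.Partition.ext ?_
      show μ.parts = Multiset.filter (fun x => x ≠ 0) (Multiset.replicate n 1)
      rw [Multiset.filter_eq_self.2 fun a ha => by rw [Multiset.eq_of_mem_replicate ha]; simp, hr, hc]
    · rintro rfl a ha
      exact le_of_eq (Multiset.eq_of_mem_replicate (Multiset.mem_of_mem_filter ha))
  rw [hsplit, Finset.card_erase_of_mem]
  simp only [Finset.mem_filter, Finset.mem_univ, true_and]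
  intro a ha
  rw [Multiset.eq_of_mem_replicate (Multiset.mem_of_mem_filter ha)]
  exact (Fact.out : p.Prime).one_lt.le

end Cfsg.Agent.KnownA.Jordan
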